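import Cfsg.Agent.H857.T10Main

/-!
# The self-centralising elementary abelian groups `X` of order `2^10` and the conjugates of `2^11` (helper796)

For a finite group `G` with the structure `J4Type.Compl G` (`E = C.E hex0` of order `2^11`):

* `noPure` : a subgroup of order 64 of `X` contains an involution not conjugate to `z`;
* `le_norm` (K1) : `|E ⊓ X| = 64` implies `X ≤ N(E)`;
* `octad_of` (K2) : if `X ≤ N(E)` then `X` is given by an octad `O`, `X ⊓ E = W(O)`, `|X ⊓ E| = 64`;
* `eq_of_mem` (K3) : two such groups which have a common element outside `E` are equal;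
* `exists_X` (K4) : existence of `X` containing a given involution over an element of `fixOct O`.
-/

set_option autoImplicit false

open scoped Pointwise

namespace Cfsg.Agent.H796.JM

open Cfsg Cfsg.Agent.SporadicA.GolayBase Cfsg.Agent.SporadicA.OctadFix
open Cfsg.Agent.J4Type Cfsg.Agent.J4Type.CocodeMask Cfsg.Agent.J4Type.TauM24
open Cfsg.Agent.J4Type.TauMask Cfsg.Agent.J4Type.FrameDefs
open Cfsg.Agent.J4.Beta
open Cfsg.Agent.H857.Card Cfsg.Agent.H857.Classify Cfsg.Agent.H857.WGrp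
open Cfsg.Agent.H857.Orbits Cfsg.Agent.H857.Normal
open Cfsg.Agent.H857.T10Rel Cfsg.Agent.H857.T10Act Cfsg.Agent.H857.T10Model
open Cfsg.Agent.H857.T10Tab

variable {G : Type*} [Group G]

/-- `X` is a self-centralising elementary abelian subgroup of order `2^10` -/
structure IsX (X : Subgroup G) : Prop where
  el : IsElem2 X
  card : Nat.card X = 2 ^ 10
  self : Subgroup.centralizer (X : Set G) = X

theorem IsX.smul [Finite G] {X : Subgroup G} (h : IsX X) (g : G) : IsX (MulAut.conj g • X) := by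
  refine ⟨Cfsg.Agent.H856.TwoEleven.isElem2_smul h.el g, ?_, ?_⟩
  · rw [Cfsg.Agent.H856.TwoEleven.card_smul, h.card]
  · ext x
    rw [mem_smul_iff]
    conv_rhs => rw [← h.self]
    rw [Subgroup.mem_centralizer_iff, Subgroup.mem_centralizer_iff]
    constructor
    · intro hx a ha
      have h1 := hx (g * a * g⁻¹) (conj_mem_smul.2 ha)
      calc a * (g⁻¹ * x * g) = g⁻¹ * (g * a * g⁻¹ * x) * g := by group
        _ = g⁻¹ * (x * (g * a * g⁻¹)) * g := by rw [h1]
        _ = _ := by group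
    · intro hx a ha
      rw [SetLike.mem_coe, mem_smul_iff] at ha
      have h1 := hx _ ha
      calc a * x = g * (g⁻¹ * a * g * (g⁻¹ * x * g)) * g⁻¹ := by group
        _ = g * (g⁻¹ * x * g * (g⁻¹ * a * g)) * g⁻¹ := by rw [h1]
        _ = _ := by group

/-! ### no pure subgroup of order 64 -/

/-- the orbit of length 155 as a set of bits -/
def bA : ℕ := bset 155 arrA

theorem bA_all : ((List.range 155).all fun j => bA.testBit (tget arrA j)) = true := by
  decide +kernel

theorem bA_count : ((Finset.range 155).filter fun i => bA.testBit (tget arrA i ^^^ 1) = true).card ≤ 42 := by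
  decide +kernel

section

variable [Finite G] {Xx E : Fin 5 → Fin 5 → G}

theorem tget_lt (t i : ℕ) : tget t i < 2 ^ 10 := Nat.mod_lt _ (by norm_num)

/-- a pure subgroup of the model which contains `beta 1` has order at most 44 -/
theorem model_lt (h : Rel5 Xx E) (hinj : ∀ v < 1024, beta (bl E) v = 1 → v = 0) {U : Subgroup G}
    (h1 : beta (bl E) 1 ∈ U)
    (hp : ∀ u ∈ U, u ≠ 1 → ∃ i < 155, beta (bl E) (tget arrA i) = u) : Nat.card U < 64 := by
  classical
  have hxor := beta_xor _ (bl_sq h) (bl_comm h)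
  have hinj' : ∀ v < 2 ^ 10, ∀ w < 2 ^ 10, beta (bl E) v = beta (bl E) w → v = w := by
    intro v hv w hw hvw
    have h2 := hxor v w
    rw [hvw, beta_sq _ (bl_sq h) (bl_comm h)] at h2
    have h3 := hinj _ (Nat.xor_lt_two_pow hv hw) h2
    exact Nat.xor_eq_zero_iff.1 h3
  let S : Finset ℕ := (Finset.range 155).filter fun i => bA.testBit (tget arrA i ^^^ 1) = true
  let T : Finset G := insert 1 (insert (beta (bl E) 1) (S.image fun i => beta (bl E) (tget arrA i)))
  have hT : T.card ≤ 44 := by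
    have h2 : (S.image fun i => beta (bl E) (tget arrA i)).card ≤ 42 :=
      Finset.card_image_le.trans bA_count
    have h3 := Finset.card_insert_le (1 : G) (insert (beta (bl E) 1) (S.image fun i => beta (bl E) (tget arrA i)))
    have h4 := Finset.card_insert_le (beta (bl E) 1) (S.image fun i => beta (bl E) (tget arrA i))
    show (insert 1 (insert (beta (bl E) 1) (S.image fun i => beta (bl E) (tget arrA i)))).card ≤ 44
    omega
  have hUT : ∀ u ∈ U, u ∈ T := by
    intro u hu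
    by_cases hu1 : u = 1
    · exact Finset.mem_insert.2 (Or.inl hu1)
    by_cases hu2 : u = beta (bl E) 1
    · exact Finset.mem_insert.2 (Or.inr (Finset.mem_insert.2 (Or.inl hu2)))
    obtain ⟨i, hi, rfl⟩ := hp u hu hu1
    have h3 : beta (bl E) (tget arrA i) * beta (bl E) 1 ∈ U := U.mul_mem hu h1
    have h4 : beta (bl E) (tget arrA i) * beta (bl E) 1 ≠ 1 := by
      intro h5
      apply hu2
      rw [eq_inv_of_mul_eq_one_left h5]
      exact inv_eq_of_mul_eq_one_left (beta_sq _ (bl_sq h) (bl_comm h) 1)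
    obtain ⟨j, hj, h5⟩ := hp _ h3 h4
    rw [← hxor] at h5
    have h6 : tget arrA j = tget arrA i ^^^ 1 :=
      hinj' _ (tget_lt _ _) _ (Nat.xor_lt_two_pow (tget_lt _ _) (by norm_num)) h5
    have h7 : bA.testBit (tget arrA j) = true := List.all_eq_true.1 bA_all j (List.mem_range.2 hj)
    refine Finset.mem_insert.2 (Or.inr (Finset.mem_insert.2 (Or.inr (Finset.mem_image.2 ⟨i, ?_, rfl⟩))))
    exact Finset.mem_filter.2 ⟨Finset.mem_range.2 hi, by rw [← h6]; exact h7⟩
  have h8 : Nat.card U ≤ T.card := by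
    have h9 : Nat.card U ≤ Nat.card T :=
      Nat.card_le_card_of_injective (fun a : U => (⟨a, hUT _ a.2⟩ : T))
        (fun a b h => Subtype.ext (congrArg (fun u : T => (u : G)) h))
    rwa [Nat.card_eq_fintype_card (α := T), Fintype.card_coe] at h9
  omega

end

/-- **no pure 2A subgroup of order 64** -/
theorem noPure [Finite G] [IsSimpleGroup G] (C : J4Type.Compl G) {X U : Subgroup G} (hX : IsX X)
    (hU : U ≤ X) (hc : 64 ≤ Nat.card U) : ∃ u ∈ U, u ≠ 1 ∧ ¬ IsConj C.z u := by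
  classical
  obtain ⟨Xx, E, hR, hA, hcard, hz, ⟨p, -, q, -, hpq, hb⟩, hinj⟩ := exists_model C
  have hab : ¬ IsConj (beta (bl E) 1) (beta (bl E) 26) := by
    intro h1
    rw [hb] at h1
    exact C.duad_not_conj p q hpq (hz.trans h1)
  obtain ⟨g, hg⟩ := exists_eq C hX.el hX.card (Cfsg.Agent.H857.T10Main.not_le C hX.card hX.self) O0_mem
  by_contra hno
  push Not at hno
  have hcase : ∀ q ∈ A0 E, q ≠ 1 → IsConj C.z q → q ∈ orb (A0 E) (beta (bl E) 1) ∧
      ∃ i < 155, beta (bl E) (tget arrA i) = q := by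
    intro q hq hq1 hqz
    rcases orb_cases hR hq hq1 with h | ⟨⟨n, -, hn⟩, -⟩
    · exact h
    · exact absurd ((hz.symm.trans hqz).trans (isConj_iff.2 ⟨n, hn⟩).symm) hab
  have hsub : ∀ V : Subgroup G, V ≤ A0 E → 64 ≤ Nat.card V → (∀ u ∈ V, u ≠ 1 → IsConj C.z u) →
      beta (bl E) 1 ∈ V → False := by
    intro V hV hVc hp h1
    have h2 := model_lt hR hinj h1 (fun u hu hu1 => (hcase u (hV hu) hu1 (hp u hu hu1)).2)
    omega
  -- the conjugate of `U` in the model
  have hU1 : MulAut.conj g • U ≤ A0 E := by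
    rw [hA, ← hg]
    exact Subgroup.pointwise_smul_le_pointwise_smul_iff.2 hU
  have hp1 : ∀ u ∈ MulAut.conj g • U, u ≠ 1 → IsConj C.z u := by
    intro u hu hu1
    rw [mem_smul_iff] at hu
    have h1 : g⁻¹ * u * g ≠ 1 := by
      intro h
      apply hu1
      have h2 : u = g * (g⁻¹ * u * g) * g⁻¹ := by group
      rw [h2, h]; group
    exact (hno _ hu h1).trans (isConj_iff.2 ⟨g, by group⟩)
  have hc1 : 64 ≤ Nat.card (MulAut.conj g • U : Subgroup G) := by
    rw [Cfsg.Agent.H856.TwoEleven.card_smul]; exact hc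
  obtain ⟨a, ha, ha1⟩ : ∃ a ∈ MulAut.conj g • U, a ≠ 1 := by
    by_contra h
    push Not at h
    have h1 : MulAut.conj g • U = ⊥ := (Subgroup.eq_bot_iff_forall _).2 h
    rw [h1, Subgroup.card_bot] at hc1
    omega
  obtain ⟨n, hn, hna⟩ := (hcase a (hU1 ha) ha1 (hp1 a ha ha1)).1
  apply hsub (MulAut.conj n⁻¹ • (MulAut.conj g • U))
  · intro u hu
    rw [mem_smul_iff, inv_inv] at hu
    have h1 := (Subgroup.mem_normalizer_iff.1 hn u).2 (hU1 hu)
    exact h1
  · rw [Cfsg.Agent.H856.TwoEleven.card_smul]; exact hc1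
  · intro u hu hu1
    rw [mem_smul_iff, inv_inv] at hu
    have h1 : n * u * n⁻¹ ≠ 1 := by
      intro h
      apply hu1
      have h2 : u = n⁻¹ * (n * u * n⁻¹) * n := by group
      rw [h2, h]; group
    exact (hp1 _ hu h1).trans (isConj_iff.2 ⟨n⁻¹, by group⟩)
  · rw [mem_smul_iff, inv_inv, hna]
    exact ha

/-! ### K1, K2 -/

/-- an involution of `E` is conjugate to `z` or a duad -/
theorem duad_of_not_conj (F : Frame G) {u : G} (hu : u ∈ F.E hex0) (hu1 : u ≠ 1)
    (huz : ¬ IsConj F.z u) : ∃ p q : GolayPt, p ≠ q ∧ u = F.ε {p, q} := by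
  by_contra hd
  obtain ⟨n, -, hn⟩ := (mem_orb_z (K := F)).2 ⟨hu, hu1, hd⟩
  exact huz (isConj_iff.2 ⟨n, hn⟩)

/-- (K1) -/
theorem le_norm [Finite G] [IsSimpleGroup G] (C : J4Type.Compl G) {X : Subgroup G} (hX : IsX X)
    (h : 64 ≤ Nat.card (X ⊓ C.E hex0 : Subgroup G)) :
    X ≤ Subgroup.normalizer (C.E hex0 : Set G) := by
  obtain ⟨u, hu, hu1, huz⟩ := noPure C hX inf_le_left h
  obtain ⟨p, q, hpq, rfl⟩ := duad_of_not_conj C.toFrame hu.2 hu1 huz
  intro x hx
  exact DuadCent.duad_cent C.toFrame hpq (hX.el.2 x hx _ hu.1)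

/-- (K2) -/
theorem octad_of [Finite G] (C : J4Type.Compl G) {X : Subgroup G} (hX : IsX X)
    (hN : X ≤ Subgroup.normalizer (C.E hex0 : Set G)) :
    ∃ O ∈ octads, im C.toFrame X = fixOct O ∧ X ⊓ C.E hex0 = WG C.toFrame O := by
  refine classify C.toFrame hX.el.1 hN hX.card ?_
  have h := Cfsg.Agent.H857.T10Main.not_le C hX.card hX.self 1
  rwa [map_one, one_smul] at h

theorem card_inf_E [Finite G] (C : J4Type.Compl G) {X : Subgroup G} (hX : IsX X)
    (hN : X ≤ Subgroup.normalizer (C.E hex0 : Set G)) :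
    Nat.card (X ⊓ C.E hex0 : Subgroup G) = 64 := by
  obtain ⟨O, hO, him, -⟩ := octad_of C hX hN
  have h1 := card_eq_mul C.toFrame hN
  rw [him, card_fixOct hO, hX.card] at h1
  omega

theorem card_WG [Finite G] (C : J4Type.Compl G) {X : Subgroup G} (hX : IsX X)
    (hN : X ≤ Subgroup.normalizer (C.E hex0 : Set G)) {O : Finset GolayPt}
    (hW : X ⊓ C.E hex0 = WG C.toFrame O) : Nat.card (WG C.toFrame O) = 64 := by
  rw [← hW]
  exact card_inf_E C hX hN

/-! ### K3 -/

/-- (K3) two groups `X` with a common element outside `E` are equal -/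
theorem eq_of_mem [Finite G] (C : J4Type.Compl G) {X X' : Subgroup G} (hX : IsX X) (hX' : IsX X')
    (hN : X ≤ Subgroup.normalizer (C.E hex0 : Set G))
    (hN' : X' ≤ Subgroup.normalizer (C.E hex0 : Set G)) {w : G} (hw : w ∈ X) (hw' : w ∈ X')
    (hwE : w ∉ C.E hex0) : X = X' := by
  obtain ⟨O, hO, him, hW⟩ := octad_of C hX hN
  obtain ⟨O', hO', him', hW'⟩ := octad_of C hX' hN'
  set σ := C.π ⟨w, hN hw⟩ with hσ
  have hσ1 : σ ≠ 1 := fun h => hwE ((C.π_ker ⟨w, hN hw⟩).1 h)
  have hσO : (σ : Equiv.Perm GolayPt) ∈ fixOct O := by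
    rw [← him]
    exact (mem_im C.toFrame).2 ⟨⟨w, hN hw⟩, hw, rfl⟩
  have hσO' : (σ : Equiv.Perm GolayPt) ∈ fixOct O' := by
    rw [← him']
    exact (mem_im C.toFrame).2 ⟨⟨w, hN hw⟩, hw', rfl⟩
  have hOO : O = O' := by
    by_contra hne
    exact hσ1 (Subtype.ext (OctadFixTrans.fix_inf hO hO' hne hσO hσO'))
  subst hOO
  obtain ⟨p, hp⟩ := FusionComm.exists_out hO
  have hpσ : p ≠ (σ : Equiv.Perm GolayPt) p := by
    intro h
    exact hσ1 (Subtype.ext (OctadFixTrans.eq_one_of_fix hO hσO hp h.symm))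
  have hWX : WG C.toFrame O ≤ X := by rw [← hW]; exact inf_le_left
  -- the elements over `τ ≠ 1, σ`
  have key : ∀ x' ∈ X', ∀ hx' : x' ∈ Subgroup.normalizer (C.E hex0 : Set G),
      C.π ⟨x', hx'⟩ ≠ 1 → C.π ⟨x', hx'⟩ ≠ σ → x' ∈ X := by
    intro x' hx'X hx' h1 hσ'
    have hτ : (C.π ⟨x', hx'⟩ : Equiv.Perm GolayPt) ∈ fixOct O := by
      rw [← him']
      exact (mem_im C.toFrame).2 ⟨⟨x', hx'⟩, hx'X, rfl⟩
    rw [← him] at hτ
    obtain ⟨x, hxX, hx⟩ := (mem_im C.toFrame).1 hτ
    rw [him] at hτ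
    have hx2 : C.π x = C.π ⟨x', hx'⟩ := Subtype.ext hx
    set d := (x : G)⁻¹ * x' with hd
    have hdE : d ∈ C.E hex0 := by
      have h2 : C.π (x⁻¹ * ⟨x', hx'⟩) = 1 := by rw [map_mul, map_inv, hx2, inv_mul_cancel]
      exact (C.π_ker _).1 h2
    have hxx : (x : G) * x = 1 := hX.el.1 _ hxX
    have hx'x' : x' * x' = 1 := hX'.el.1 _ hx'X
    have hdd : d * d = 1 := E_sq hdE
    have hx'd : x' = x * d := by rw [hd]; group
    have hxinv : (x : G)⁻¹ = x := inv_eq_of_mul_eq_one_left hxx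
    have hxd : (x : G) * d = d * x := by
      have h2 : (x : G) * d * (x * d) = 1 := by rw [← hx'd]; exact hx'x'
      calc (x : G) * d = (x * d) * ((x * d) * (x * d)) := by rw [h2, mul_one]
        _ = (x * d * (x * d)) * (x * d) := by group
        _ = x * d := by rw [h2, one_mul]
        _ = (x * d)⁻¹ := (inv_eq_of_mul_eq_one_left h2).symm
        _ = d⁻¹ * (x : G)⁻¹ := by group
        _ = d * x := by rw [inv_eq_of_mul_eq_one_left hdd, hxinv]
    have hwd : w * d = d * w := by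
      have h2 := hX.el.2 w hw x hxX
      have h3 := hX'.el.2 w hw' x' hx'X
      calc w * d = w * x * x' := by rw [hd, hxinv]; group
        _ = x * (w * x') := by rw [h2]; group
        _ = x * (x' * w) := by rw [h3]
        _ = d * w := by rw [hd, hxinv]; group
    have hc := cases_of_comm (F := C.toFrame) hO (n := ⟨w, hN hw⟩) hσO hσ1 hp hdE hwd
    rcases hc with hc | hc
    · rw [hx'd]
      exact X.mul_mem hxX (hWX hc)
    · exfalso
      have hε : (x : G) * C.ε {p, (σ : Equiv.Perm GolayPt) p} =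
          C.ε {p, (σ : Equiv.Perm GolayPt) p} * x := by
        have h2 := hX.el.2 _ hxX _ (hWX hc)
        have h3 : C.ε {p, (σ : Equiv.Perm GolayPt) p} =
            d * (d * C.ε {p, (σ : Equiv.Perm GolayPt) p}) := by
          rw [← mul_assoc, hdd, one_mul]
        calc (x : G) * C.ε {p, (σ : Equiv.Perm GolayPt) p}
            = x * (d * (d * C.ε {p, (σ : Equiv.Perm GolayPt) p})) := by rw [← h3]
          _ = x * d * (d * C.ε {p, (σ : Equiv.Perm GolayPt) p}) := by group
          _ = d * (x * (d * C.ε {p, (σ : Equiv.Perm GolayPt) p})) := by rw [hxd]; group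
          _ = d * (d * C.ε {p, (σ : Equiv.Perm GolayPt) p} * x) := by rw [h2]
          _ = d * (d * C.ε {p, (σ : Equiv.Perm GolayPt) p}) * x := by group
          _ = _ := by rw [← h3]
      rw [← hx2] at h1 hσ' hτ
      rcases duad_comm hpσ hε with h | h
      · exact h1 (Subtype.ext (OctadFixTrans.eq_one_of_fix hO hτ hp h))
      · apply hσ'
        apply Subtype.ext
        have h2 : (σ : Equiv.Perm GolayPt)⁻¹ * (C.π x : Equiv.Perm GolayPt) = 1 :=
          OctadFixTrans.eq_one_of_fix hO ((fixOct O).mul_mem ((fixOct O).inv_mem hσO) hτ) hp (by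
            rw [Equiv.Perm.mul_apply, h]
            exact (σ : Equiv.Perm GolayPt).symm_apply_apply p)
        exact (inv_mul_eq_one.1 h2).symm
  have hle : X' ≤ X := by
    intro x' hx'X
    have hx' := hN' hx'X
    by_cases h1 : C.π ⟨x', hx'⟩ = 1
    · have h2 : x' ∈ X' ⊓ C.E hex0 := ⟨hx'X, (C.π_ker ⟨x', hx'⟩).1 h1⟩
      rw [hW'] at h2
      exact hWX h2
    by_cases h2 : C.π ⟨x', hx'⟩ = σ
    · obtain ⟨τ, hτ, hτn⟩ : ∃ τ ∈ fixOct O, τ ∉ ({1, (σ : Equiv.Perm GolayPt)} : Finset _) := by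
        classical
        apply FusionOne.exists_mem_notMem
        rw [card_fixOct hO]
        have := Finset.card_le_two (a := (1 : Equiv.Perm GolayPt)) (b := (σ : Equiv.Perm GolayPt))
        omega
      simp only [Finset.mem_insert, Finset.mem_singleton, not_or] at hτn
      have hτ' := hτ
      rw [← him'] at hτ'
      obtain ⟨y, hyX, hy⟩ := (mem_im C.toFrame).1 hτ'
      have hy1 : C.π y ≠ 1 := fun h => hτn.1 (by rw [← hy, h]; rfl)
      have hyσ : C.π y ≠ σ := fun h => hτn.2 (by rw [← hy, h])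
      have hyX' : (y : G) ∈ X := key y hyX y.2 hy1 hyσ
      have h3 : C.π (⟨x', hx'⟩ * y) = σ * C.π y := by rw [map_mul, h2]
      have hσσ : σ * σ = 1 := Subtype.ext (fixOct_sq hO hσO)
      have h4 : x' * y ∈ X := by
        apply key (x' * y) (X'.mul_mem hx'X hyX) (mul_mem hx' y.2)
        · intro h
          have h5 : σ * C.π y = 1 := by rw [← h3]; exact h
          apply hyσ
          rw [eq_inv_of_mul_eq_one_right h5]
          exact inv_eq_of_mul_eq_one_left hσσ
        · intro h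
          have h5 : σ * C.π y = σ := by rw [← h3]; exact h
          exact hy1 (mul_eq_left.1 h5)
      have h5 := X.mul_mem h4 (X.inv_mem hyX')
      rwa [mul_inv_cancel_right] at h5
    · exact key x' hx'X hx' h1 h2
  exact (Subgroup.eq_of_le_of_card_ge hle (by rw [hX.card, hX'.card])).symm

/-! ### K4 -/

theorem isX_AG [Finite G] [IsSimpleGroup G] (C : J4Type.Compl G) {O : Finset GolayPt}
    (hO : O ∈ octads) : IsX (AG C O) := by
  refine ⟨⟨AG_sq hO, fun a ha b hb => comm_of_sq (AG_sq hO) a ha b hb⟩, ?_, AG_cent C hO⟩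
  obtain ⟨Xx, E, -, hA, hcard, -, -, -⟩ := exists_model C
  obtain ⟨p, hp⟩ := FusionComm.exists_out hO
  obtain ⟨p', hp'⟩ := FusionComm.exists_out O0_mem
  obtain ⟨k, hk, hkO, -⟩ :=
    Cfsg.Agent.SporadicStructure.M24Frame.exists_smul_octad O0_mem hO hp' hp
  have h1 := smul_AG (C := C) ⟨k, hk⟩ O0
  have h2 : (((⟨k, hk⟩ : M24) : Equiv.Perm GolayPt) • O0 : Finset GolayPt) = O := hkO
  rw [h2] at h1
  rw [← h1, Cfsg.Agent.H856.TwoEleven.card_smul, ← hA, hcard]
  norm_num

/-- the octad of `X` is determined by an element outside `E` -/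
theorem octad_eq [Finite G] (C : J4Type.Compl G) {X : Subgroup G} (hX : IsX X)
    (hN : X ≤ Subgroup.normalizer (C.E hex0 : Set G)) {O : Finset GolayPt} (hO : O ∈ octads) {w : G}
    (hwX : w ∈ X) (hw : w ∈ Subgroup.normalizer (C.E hex0 : Set G))
    (hwO : (C.π ⟨w, hw⟩ : Equiv.Perm GolayPt) ∈ fixOct O) (hw1 : C.π ⟨w, hw⟩ ≠ 1) :
    im C.toFrame X = fixOct O ∧ X ⊓ C.E hex0 = WG C.toFrame O := by
  obtain ⟨O', hO', him, hW⟩ := octad_of C hX hN
  have h1 : (C.π ⟨w, hw⟩ : Equiv.Perm GolayPt) ∈ fixOct O' := by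
    rw [← him]
    exact (mem_im C.toFrame).2 ⟨⟨w, hw⟩, hwX, rfl⟩
  have h2 : O' = O := by
    by_contra hne
    exact hw1 (Subtype.ext (OctadFixTrans.fix_inf hO' hO hne h1 hwO))
  subst h2
  exact ⟨him, hW⟩

/-- (K4) an involution over an element of `fixOct O` is in a group `X` -/
theorem exists_X [Finite G] [IsSimpleGroup G] (C : J4Type.Compl G) {O : Finset GolayPt}
    (hO : O ∈ octads) {w : G} (hw : w ∈ Subgroup.normalizer (C.E hex0 : Set G)) (hww : w * w = 1)
    (hwO : (C.π ⟨w, hw⟩ : Equiv.Perm GolayPt) ∈ fixOct O) (hw1 : C.π ⟨w, hw⟩ ≠ 1) :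
    ∃ X : Subgroup G, IsX X ∧ w ∈ X ∧ X ≤ Subgroup.normalizer (C.E hex0 : Set G) ∧
      im C.toFrame X = fixOct O ∧ X ⊓ C.E hex0 = WG C.toFrame O := by
  obtain ⟨p, hp⟩ := FusionComm.exists_out hO
  have hne : O.Nonempty := by
    rw [← Finset.card_pos, octad_card hO]; norm_num
  obtain ⟨o, ho⟩ := hne
  have hpo : p ≠ o := fun h => hp (h ▸ ho)
  set b := C.π ⟨w, hw⟩ with hb
  have he := div_mem (C := C) hw
  rw [← hb] at he
  set e := w * (C.φ b)⁻¹ with hedef
  have hwe : w = e * C.φ b := by rw [hedef]; group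
  have hee := E_sq he
  have hbb := φ_sq (C := C) hO hwO
  have hcomm : C.φ b * e = e * C.φ b := by
    rw [hwe] at hww
    calc C.φ b * e = (e * e) * (C.φ b * e) * (C.φ b * C.φ b) := by rw [hee, hbb, one_mul, mul_one]
      _ = e * (e * C.φ b * (e * C.φ b)) * C.φ b := by group
      _ = e * C.φ b := by rw [hww, mul_one]
  have hpb : p ≠ (b : Equiv.Perm GolayPt) p := by
    intro h
    exact hw1 (Subtype.ext (OctadFixTrans.eq_one_of_fix hO hwO hp h.symm))
  have hπ : C.π ⟨C.φ b, C.φ_mem b⟩ = b := C.π_φ b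
  have hc := cases_of_comm (F := C.toFrame) hO (n := ⟨C.φ b, C.φ_mem b⟩) (by rw [hπ]; exact hwO)
    (by rw [hπ]; exact hw1) hp he hcomm
  rw [hπ] at hc
  have fin : ∀ X : Subgroup G, IsX X → w ∈ X → X ≤ Subgroup.normalizer (C.E hex0 : Set G) →
      ∃ X : Subgroup G, IsX X ∧ w ∈ X ∧ X ≤ Subgroup.normalizer (C.E hex0 : Set G) ∧
        im C.toFrame X = fixOct O ∧ X ⊓ C.E hex0 = WG C.toFrame O := by
    intro X h1 h2 h3
    exact ⟨X, h1, h2, h3, octad_eq C h1 h3 hO h2 hw hwO hw1⟩
  rcases hc with h | h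
  · exact fin (AG C O) (isX_AG C hO) ⟨e, h, b, hwO, hwe.symm⟩ (AG_le_norm O)
  · set g := C.ε {p, o} with hg
    have hgE : g ∈ C.E hex0 := C.ε_mem _ (even_pair' hpo)
    have hgg : g * g = 1 := E_sq hgE
    have hginv : g⁻¹ = g := inv_eq_of_mul_eq_one_right hgg
    have hgN : g ∈ Subgroup.normalizer (C.E hex0 : Set G) := E_le C.toFrame hgE
    refine fin (MulAut.conj g • AG C O) ((isX_AG C hO).smul g) ?_ ?_
    · rw [mem_smul_iff]
      refine ⟨e * C.ε {p, (b : Equiv.Perm GolayPt) p}, h, b, hwO, ?_⟩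
      have hbo : (b : Equiv.Perm GolayPt) o = o := (mem_fixOct.1 hwO).2 o ho
      have h2 := TauMain.φ_ε C b (even_pair' hpo)
      have h3 : (b : Equiv.Perm GolayPt) • ({p, o} : Finset GolayPt) =
          {(b : Equiv.Perm GolayPt) p, o} := by
        rw [Finset.smul_finset_insert, Finset.smul_finset_singleton]
        show ({(b : Equiv.Perm GolayPt) p, (b : Equiv.Perm GolayPt) o} : Finset GolayPt) = _
        rw [hbo]
      rw [h3] at h2
      have hbpo : (b : Equiv.Perm GolayPt) p ≠ o := by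
        intro h4
        exact hpo ((b : Equiv.Perm GolayPt).injective (h4.trans hbo.symm))
      have h4 : g * C.φ b * g = C.ε {p, (b : Equiv.Perm GolayPt) p} * C.φ b := by
        have h5 : C.φ b * g = C.ε {(b : Equiv.Perm GolayPt) p, o} * C.φ b :=
          mul_inv_eq_iff_eq_mul.1 h2
        rw [mul_assoc, h5, ← mul_assoc, hg, Finset.pair_comm p o,
          Finset.pair_comm ((b : Equiv.Perm GolayPt) p) o,
          ε_pair_mul (F := C.toFrame) (Ne.symm hpo) (Ne.symm hbpo) hpb]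
      have h6 : g * e = e * g := (C.E_elem hex0 HexMax.hex0_isHex).2 g hgE e he
      rw [hginv, hwe]
      calc e * C.ε {p, (b : Equiv.Perm GolayPt) p} * C.φ b
          = e * (g * C.φ b * g) := by rw [h4, mul_assoc]
        _ = e * g * C.φ b * g := by group
        _ = g * e * C.φ b * g := by rw [h6]
        _ = g * (e * C.φ b) * g := by group
    · intro v hv
      rw [mem_smul_iff] at hv
      have h1 := AG_le_norm O hv
      have h2 : v = g * (g⁻¹ * v * g) * g⁻¹ := by group
      rw [h2]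
      exact mul_mem (mul_mem hgN h1) (inv_mem hgN)

end Cfsg.Agent.H796.JM
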