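import Cfsg.Agent.H860.JM.Basic
import Cfsg.Agent.H796.JM.XGrp

/-!
# The geometry of `Spor.J4` and the structure `J4Type.Compl` (helper796)

`exists_link` : there is `C : J4Type.Compl Spor.J4` such that 2A = the class of `C.z`, the points are the conjugates
of `C.E hex0`, and the duads `C.ε {p, q}` are 2B.
-/

set_option autoImplicit false

open scoped Pointwise

namespace Cfsg.Agent.H796.JM

open Cfsg Cfsg.Agent.H860.JM
open Cfsg.Agent.J4Type
open Cfsg.Agent.J4.Invol (EJ s d)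

/-- the group `Spor.J4` -/
local notation "𝒢" => Cfsg.Spor.J4

theorem cj_eq {G : Type*} [Group G] (g : G) (P : Subgroup G) : cj g P = MulAut.conj g • P := by
  ext x
  rw [mem_cj, Cfsg.Agent.H857.Orbits.mem_smul_iff]

/-- the link between the geometry `geo` and a structure `C` -/
structure Link (C : J4Type.Compl 𝒢) : Prop where
  A : ∀ u, geo.A u ↔ IsConj C.z u
  Pt : ∀ P : Subgroup 𝒢, geo.Pt P ↔ ∃ g : 𝒢, P = MulAut.conj g • C.E hex0
  B : ∀ p q : GolayPt, p ≠ q → geo.B (C.ε {p, q})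
  exB : ∀ u, geo.B u → ∃ (g : 𝒢) (p q : GolayPt), p ≠ q ∧ g * C.ε {p, q} * g⁻¹ = u

theorem xc_iff {X : Subgroup 𝒢} : geo.Xc X ↔ IsX X := by
  constructor
  · rintro ⟨h1, h2, h3⟩
    exact ⟨Cfsg.Agent.H857.T10Main.isElem2_of h1, h2, h3⟩
  · rintro ⟨h1, h2, h3⟩
    exact ⟨Cfsg.Agent.H857.T10Main.elementary_of h1.1, h2, h3⟩

theorem exists_link : ∃ C : J4Type.Compl 𝒢, Link C := by
  have := simple_J
  have := finite_J
  obtain ⟨z, t, hz, hsz, -, -, -, -⟩ := classes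
  obtain ⟨P, hP⟩ := hz
  obtain ⟨Q, N, M, H, -, -⟩ := Cfsg.Agent.H856.ToHyp.exists_hyp hP
  obtain ⟨C, -, hCz, -⟩ := Cfsg.Agent.H856.Bridge.exists_compl_of_hyp H
  have hA : ∀ u, geo.A u ↔ IsConj C.z u := by
    intro u
    rw [hCz]
    exact ⟨fun h => hsz.symm.trans h, fun h => hsz.trans h⟩
  have hEJ : IsElem2 EJ := ⟨fun a ha => EJ_sq ha, fun a ha b hb => EJ_comm ha hb⟩
  obtain ⟨g, hg⟩ := Cfsg.Agent.H856.TwoEleven.exists_conj_E C.toHex hEJ card_EJ.ge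
  have hPt : ∀ P : Subgroup 𝒢, geo.Pt P ↔ ∃ g : 𝒢, P = MulAut.conj g • C.E hex0 := by
    intro P
    constructor
    · rintro ⟨k, rfl⟩
      refine ⟨k * g⁻¹, ?_⟩
      rw [cj_eq, ← hg, ← mul_smul, ← map_mul, inv_mul_cancel_right]
    · rintro ⟨k, rfl⟩
      refine ⟨k * g, ?_⟩
      rw [cj_eq, ← hg, ← mul_smul, ← map_mul]
  have hB : ∀ p q : GolayPt, p ≠ q → geo.B (C.ε {p, q}) := by
    intro p q hpq
    have h1 : C.ε {p, q} ∈ C.E hex0 := C.ε_mem _ (Cfsg.Agent.H857.WGrp.even_pair' hpq)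
    have h2 : C.ε {p, q} ≠ 1 := DuadUniq.duad_ne_one C.toFrame hpq
    rcases f1.invol _ h2 (Cfsg.Agent.H857.WGrp.E_sq h1) with h | h
    · exact absurd ((hA _).1 h) (C.duad_not_conj p q hpq)
    · exact h
  refine ⟨C, hA, hPt, hB, ?_⟩
  intro u hu
  have h1 : geo.B (C.ε {none, some 0}) := hB _ _ (by decide)
  obtain ⟨k, hk⟩ := isConj_iff.1 (h1.symm.trans hu)
  exact ⟨k, none, some 0, by decide, hk⟩

end Cfsg.Agent.H796.JM
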