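import Cfsg.Agent.H796.JM.Base

/-!
# `F14` : points and groups `X` (helper796)
-/

set_option autoImplicit false

open scoped Pointwise

namespace Cfsg.Agent.H796.JM

open Cfsg Cfsg.Agent.SporadicA.GolayBase Cfsg.Agent.SporadicA.OctadFix
open Cfsg.Agent.J4Type Cfsg.Agent.J4Type.CocodeMask Cfsg.Agent.J4Type.TauM24
open Cfsg.Agent.J4Type.TauMask Cfsg.Agent.J4Type.FrameDefs
open Cfsg.Agent.H857.Card Cfsg.Agent.H857.Classify Cfsg.Agent.H857.WGrp
open Cfsg.Agent.H857.Orbits Cfsg.Agent.H857.Normal Cfsg.Agent.H857.T10Norm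

variable {G : Type*} [Group G]

/-- a subgroup of `W(O)` without duads `{x, y}`, `x, y` in a set of at least three points of `O` -/
theorem card_le_sixteen [Finite G] (C : J4Type.Compl G) {O S : Finset GolayPt} (hO : O ∈ octads)
    (hS : 3 ≤ S.card) (hSO : S ⊆ O) {K : Subgroup G} (hK : K ≤ WG C.toFrame O)
    (hd : ∀ x ∈ S, ∀ y ∈ S, x ≠ y → C.ε {x, y} ∉ K) : Nat.card K ≤ 16 := by
  obtain ⟨x, hx, y, hy, z, hz, hxy, hxz, hyz⟩ := Finset.two_lt_card.1 (show 2 < S.card by omega)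
  have h1 := four_mul_card_le hK (fun w hw => E_sq (WG_le O hw))
    (duad_mem_WG (F := C.toFrame) (hSO hx) (hSO hy) hxy)
    (duad_mem_WG (F := C.toFrame) (hSO hx) (hSO hz) hxz) (hd x hx y hy hxy) (hd x hx z hz hxz)
    (by rw [ε_pair_mul hxy hxz hyz]; exact hd y hy z hz hyz)
  have h2 := card_WG_le (F := C.toFrame) hO
  omega

/-- (eq) -/
theorem inf_eq_inf [Finite G] (C : J4Type.Compl G) {X X' : Subgroup G} (hX : IsX X) (hX' : IsX X')
    (hN : X ≤ Subgroup.normalizer (C.E hex0 : Set G))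
    (hN' : X' ≤ Subgroup.normalizer (C.E hex0 : Set G))
    (h : 17 ≤ Nat.card (C.E hex0 ⊓ X ⊓ X' : Subgroup G)) : C.E hex0 ⊓ X = C.E hex0 ⊓ X' := by
  obtain ⟨O, hO, -, hW⟩ := octad_of C hX hN
  obtain ⟨O', hO', -, hW'⟩ := octad_of C hX' hN'
  rw [inf_comm] at hW hW'
  by_cases hOO : O = O'
  · subst hOO
    rw [hW, hW']
  · exfalso
    have h1 : (O ∩ O').card ≤ 4 := by
      by_contra h5
      exact hOO (octad_unique hO hO' (by omega))
    have h2 : 4 ≤ (O \ O').card := by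
      have h3 := Finset.card_sdiff_add_card_inter O O'
      have h4 := octad_card hO
      omega
    have h3 := card_le_sixteen C hO (S := O \ O') (by omega) Finset.sdiff_subset
      (K := C.E hex0 ⊓ X ⊓ X') (by rw [hW]; exact inf_le_left) (by
        intro x hx y hy hxy hm
        have h4 : C.ε {x, y} ∈ WG C.toFrame O' := by
          rw [← hW']
          exact ⟨hm.1.1, hm.2⟩
        exact (Finset.mem_sdiff.1 hx).2 (mem_of_duad hO' hxy h4))
    omega

/-- a duad is in no other conjugate of `E` -/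
theorem duad_not_mem_conj [Finite G] (C : J4Type.Compl G) {g : G} {p q : GolayPt} (hpq : p ≠ q)
    (h : C.ε {p, q} ∈ MulAut.conj g • C.E hex0) : MulAut.conj g • C.E hex0 = C.E hex0 := by
  rw [mem_smul_iff] at h
  have h1 : g⁻¹ * C.ε {p, q} * g ≠ 1 := by
    intro h2
    apply DuadUniq.duad_ne_one C.toFrame hpq
    have h3 : C.ε {p, q} = g * (g⁻¹ * C.ε {p, q} * g) * g⁻¹ := by group
    rw [h3, h2]; group
  obtain ⟨r, s, hrs, h2⟩ := duad_of_not_conj C.toFrame h h1 (by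
    intro h3
    apply C.duad_not_conj p q hpq
    exact h3.trans (isConj_iff.2 ⟨g, by group⟩))
  have h3 : g ∈ Subgroup.normalizer (C.E hex0 : Set G) := by
    apply mem_norm_of_conj (C := C) hrs hpq
    rw [← h2]; group
  ext x
  rw [mem_smul_iff]
  have h4 := Subgroup.mem_normalizer_iff.1 h3 (g⁻¹ * x * g)
  rw [show g * (g⁻¹ * x * g) * g⁻¹ = x by group] at h4
  exact h4

/-- the image of `P' ⊓ X` in `M24` has order at least 4 -/
theorem four_le_im [Finite G] (C : J4Type.Compl G) {X : Subgroup G} (hX : IsX X)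
    (hN : X ≤ Subgroup.normalizer (C.E hex0 : Set G)) {g : G}
    (hg : MulAut.conj g • C.E hex0 ≠ C.E hex0)
    (h : 64 ≤ Nat.card (MulAut.conj g • C.E hex0 ⊓ X : Subgroup G)) :
    4 ≤ Nat.card (im C.toFrame (MulAut.conj g • C.E hex0 ⊓ X)) := by
  obtain ⟨O, hO, -, hW⟩ := octad_of C hX hN
  have h1 := card_eq_mul C.toFrame (V := MulAut.conj g • C.E hex0 ⊓ X) (inf_le_right.trans hN)
  have h2 : Nat.card (MulAut.conj g • C.E hex0 ⊓ X ⊓ C.E hex0 : Subgroup G) ≤ 16 := by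
    apply card_le_sixteen C hO (S := O) (by rw [octad_card hO]; norm_num) (le_refl _)
    · rw [inf_assoc, hW]; exact inf_le_right
    · intro x _ y _ hxy hm
      exact hg (duad_not_mem_conj C hxy hm.1.1)
  by_contra h3
  have h4 : Nat.card (im C.toFrame (MulAut.conj g • C.E hex0 ⊓ X)) ≤ 3 := by omega
  have h5 := Nat.mul_le_mul h2 h4
  rw [← h1] at h5
  omega

/-- (le) -/
theorem inf_le_X [Finite G] (C : J4Type.Compl G) {X : Subgroup G} (hX : IsX X)
    (hN : X ≤ Subgroup.normalizer (C.E hex0 : Set G)) {g : G}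
    (hg : MulAut.conj g • C.E hex0 ≠ C.E hex0)
    (h : 64 ≤ Nat.card (MulAut.conj g • C.E hex0 ⊓ X : Subgroup G)) :
    C.E hex0 ⊓ MulAut.conj g • C.E hex0 ≤ X := by
  intro d hd
  obtain ⟨O, hO, him, hW⟩ := octad_of C hX hN
  obtain ⟨a, ha, b, hb, ha1, hb1, hab⟩ := FusionFact.exists_two_of_card (four_le_im C hX hN hg h)
  obtain ⟨na, hna, rfl⟩ := (mem_im C.toFrame).1 ha
  obtain ⟨nb, hnb, rfl⟩ := (mem_im C.toFrame).1 hb
  have hcomm : ∀ n ∈ MulAut.conj g • C.E hex0 ⊓ X, n * d = d * n := by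
    intro n hn
    exact (Cfsg.Agent.H856.TwoEleven.isElem2_smul (C.E_elem hex0 HexMax.hex0_isHex) g).2 n hn.1 d hd.2
  have hO' : ∀ n : NE C.toFrame, (n : G) ∈ X → (C.π n : Equiv.Perm GolayPt) ∈ fixOct O := by
    intro n hn
    rw [← him]
    exact (mem_im C.toFrame).2 ⟨n, hn, rfl⟩
  have h1 := mem_WG_of_comm hO (F := C.toFrame) (n := na) (m := nb) (hO' na hna.2)
    (fun h => ha1 (by rw [h]; rfl)) (hO' nb hnb.2) (fun h => hb1 (by rw [h]; rfl))
    (fun h => hab (by rw [h])) hd.1 (hcomm _ hna) (hcomm _ hnb)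
  rw [← hW] at h1
  exact h1.1

/-- (uniq) -/
theorem eq_of_inf [Finite G] (C : J4Type.Compl G) {X X' : Subgroup G} (hX : IsX X) (hX' : IsX X')
    (hN : X ≤ Subgroup.normalizer (C.E hex0 : Set G))
    (hN' : X' ≤ Subgroup.normalizer (C.E hex0 : Set G)) {g : G}
    (hg : MulAut.conj g • C.E hex0 ≠ C.E hex0)
    (h : 64 ≤ Nat.card (MulAut.conj g • C.E hex0 ⊓ X : Subgroup G))
    (h' : MulAut.conj g • C.E hex0 ⊓ X = MulAut.conj g • C.E hex0 ⊓ X') : X = X' := by
  obtain ⟨a, ha, -, -, ha1, -, -⟩ := FusionFact.exists_two_of_card (four_le_im C hX hN hg h)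
  obtain ⟨na, hna, rfl⟩ := (mem_im C.toFrame).1 ha
  have hna' := hna
  rw [h'] at hna'
  refine eq_of_mem C hX hX' hN hN' hna.2 hna'.2 ?_
  intro hE
  exact ha1 (by rw [(C.π_ker na).2 hE]; rfl)

/-! ### `F14` -/

section

open Cfsg.Agent.H860.JM

/-- the group `Spor.J4` -/
local notation "𝒢" => Cfsg.Spor.J4

theorem exists_smul_eq {G : Type*} [Group G] (g : G) (X : Subgroup G) :
    ∃ X₁ : Subgroup G, X = MulAut.conj g • X₁ :=
  ⟨(MulAut.conj g)⁻¹ • X, (smul_inv_smul _ _).symm⟩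

theorem isX_of_smul {G : Type*} [Group G] [Finite G] {g : G} {X : Subgroup G}
    (h : IsX (MulAut.conj g • X)) : IsX X := by
  have h1 := h.smul g⁻¹
  rwa [map_inv, inv_smul_smul] at h1

theorem f14 : F14 geo := by
  have := simple_J
  have := finite_J
  obtain ⟨C, L⟩ := exists_link
  have hcs : ∀ (g : 𝒢) (V : Subgroup 𝒢), Nat.card (MulAut.conj g • V : Subgroup 𝒢) = Nat.card V :=
    fun g V => Cfsg.Agent.H856.TwoEleven.card_smul V g
  have hN : ∀ X : Subgroup 𝒢, IsX X → Nat.card (C.E hex0 ⊓ X : Subgroup 𝒢) = 64 →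
      X ≤ Subgroup.normalizer (C.E hex0 : Set 𝒢) := by
    intro X hX h
    apply le_norm C hX
    rw [inf_comm, h]
  refine ⟨?_, ?_, ?_⟩
  · intro P X X' hP hX hX' h h' h32
    obtain ⟨g, rfl⟩ := (L.Pt P).1 hP
    obtain ⟨X, rfl⟩ := exists_smul_eq g X
    obtain ⟨X', rfl⟩ := exists_smul_eq g X'
    have hX := isX_of_smul (xc_iff.1 hX)
    have hX' := isX_of_smul (xc_iff.1 hX')
    rw [← Subgroup.smul_inf, hcs] at h h'
    rw [← Subgroup.smul_inf, ← Subgroup.smul_inf, hcs] at h32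
    rw [← Subgroup.smul_inf, ← Subgroup.smul_inf,
      inf_eq_inf C hX hX' (hN X hX h) (hN X' hX' h') (by omega)]
  · intro P P' X hP hP' hne hX h h'
    obtain ⟨g, rfl⟩ := (L.Pt P).1 hP
    obtain ⟨k, rfl⟩ := (L.Pt P').1 hP'
    obtain ⟨X, rfl⟩ := exists_smul_eq g X
    have hX := isX_of_smul (xc_iff.1 hX)
    have e : MulAut.conj k • C.E hex0 = MulAut.conj g • (MulAut.conj (g⁻¹ * k) • C.E hex0) := by
      rw [← mul_smul, ← map_mul, mul_inv_cancel_left]
    rw [e, ← Subgroup.smul_inf, hcs] at h'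
    rw [← Subgroup.smul_inf, hcs] at h
    rw [e] at hne
    rw [e, ← Subgroup.smul_inf, Subgroup.pointwise_smul_le_pointwise_smul_iff]
    exact inf_le_X C hX (hN X hX h) (fun h1 => hne (by rw [h1])) h'.ge
  · intro P P' X X' hP hP' hne hX hX' h h' h1 h2
    obtain ⟨g, rfl⟩ := (L.Pt P).1 hP
    obtain ⟨k, rfl⟩ := (L.Pt P').1 hP'
    obtain ⟨X, rfl⟩ := exists_smul_eq g X
    obtain ⟨X', rfl⟩ := exists_smul_eq g X'
    have hX := isX_of_smul (xc_iff.1 hX)
    have hX' := isX_of_smul (xc_iff.1 hX')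
    have e : MulAut.conj k • C.E hex0 = MulAut.conj g • (MulAut.conj (g⁻¹ * k) • C.E hex0) := by
      rw [← mul_smul, ← map_mul, mul_inv_cancel_left]
    rw [e, ← Subgroup.smul_inf, hcs] at h'
    rw [← Subgroup.smul_inf, hcs] at h
    rw [e] at hne
    rw [e, ← Subgroup.smul_inf, ← Subgroup.smul_inf] at h2
    rw [← Subgroup.smul_inf, ← Subgroup.smul_inf] at h1
    have h3 := MulAction.injective (MulAut.conj g) h1
    have h4 := MulAction.injective (MulAut.conj g) h2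
    rw [eq_of_inf C hX hX' (hN X hX h) (hN X' hX' (by rw [← h3]; exact h))
      (fun h5 => hne (by rw [h5])) h'.ge h4]

end

end Cfsg.Agent.H796.JM
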