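import Cfsg.Agent.H796.JM.FSixC

/-!
# Part (a) of `F16` : an elementary abelian group with an element with fixed points (helper796)
-/

set_option autoImplicit false

open scoped Pointwise

namespace Cfsg.Agent.H796.JM

open Cfsg Cfsg.Agent.SporadicA.GolayBase Cfsg.Agent.SporadicA.OctadFix
open Cfsg.Agent.J4Type Cfsg.Agent.J4Type.CocodeMask Cfsg.Agent.J4Type.TauM24
open Cfsg.Agent.J4Type.TauMask Cfsg.Agent.J4Type.FrameDefs
open Cfsg.Agent.H857.Card Cfsg.Agent.H857.Classify Cfsg.Agent.H857.WGrp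
open Cfsg.Agent.H857.Orbits Cfsg.Agent.H857.Normal Cfsg.Agent.H857.T10Norm

variable {G : Type*} [Group G]

/-- `|C_W(n)| ≤ 16` -/
theorem card_cent_le [Finite G] (C : J4Type.Compl G) {O : Finset GolayPt} (hO : O ∈ octads)
    (n : NE C.toFrame) (hn2 : (C.π n : Equiv.Perm GolayPt) * (C.π n : Equiv.Perm GolayPt) = 1)
    (hnO : (C.π n : Equiv.Perm GolayPt) • O = O) (hnf : (C.π n : Equiv.Perm GolayPt) ∉ fixOct O) :
    Nat.card (WG C.toFrame O ⊓ Subgroup.centralizer ({(n : G)} : Set G) : Subgroup G) ≤ 16 := by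
  obtain ⟨x, hx, hgx⟩ : ∃ x ∈ O, (C.π n : Equiv.Perm GolayPt) x ≠ x := by
    by_contra hno
    push Not at hno
    exact hnf (mem_fixOct.2 ⟨(C.π n).2, hno⟩)
  obtain ⟨y, hy, z, hz, hxy, hxz, hyz, h1, h2, h3, h4⟩ := exists_yz hO (C.π n).2 hn2 hnO hx hgx
  have h5 := four_mul_card (F := C.toFrame) (n := n) hx hy hz hxy hxz hyz hgx h1 h2 h3 h4
  have h6 := card_WG_le (F := C.toFrame) hO
  omega

/-- case (ii) -/
theorem card_cent_two_le_aux [Finite G] (C : J4Type.Compl G) {O : Finset GolayPt} (hO : O ∈ octads)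
    (n m : NE C.toFrame) (hn2 : (C.π n : Equiv.Perm GolayPt) * (C.π n : Equiv.Perm GolayPt) = 1)
    (hnO : (C.π n : Equiv.Perm GolayPt) • O = O) (hmO : (C.π m : Equiv.Perm GolayPt) • O = O)
    (hnf : (C.π n : Equiv.Perm GolayPt) ∉ fixOct O)
    (hnm : (C.π n : Equiv.Perm GolayPt) * (C.π m : Equiv.Perm GolayPt) =
      (C.π m : Equiv.Perm GolayPt) * (C.π n : Equiv.Perm GolayPt)) {x : GolayPt} (hx : x ∈ O)
    (hnx : (C.π n : Equiv.Perm GolayPt) x = x) (hmx : (C.π m : Equiv.Perm GolayPt) x ≠ x) :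
    Nat.card (WG C.toFrame O ⊓ Subgroup.centralizer ({(n : G)} : Set G) ⊓
      Subgroup.centralizer ({(m : G)} : Set G) : Subgroup G) ≤ 8 := by
  have h16 := card_cent_le C hO n hn2 hnO hnf
  set g := (C.π n : Equiv.Perm GolayPt) with hg
  set h := (C.π m : Equiv.Perm GolayPt) with hh
  have hhxO : h x ∈ O := (FusionM22.mem_iff_of_smul_eq hmO x).2 hx
  have hghx : g (h x) = h x := by
    rw [← Equiv.Perm.mul_apply, hnm, Equiv.Perm.mul_apply, hnx]
  have hgg : ∀ y ∈ O, g (g y) = y := fun y _ => by rw [← Equiv.Perm.mul_apply, hn2]; rfl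
  have h4 : (Finset.univ.filter fun y : ↥O => g y = y).card = 4 :=
    FusionM22.card_fix_octad hO (C.π n).2 hgg hnO hx hhxO (Ne.symm hmx) hnx hghx
      (fun hall => hnf (mem_fixOct.2 ⟨(C.π n).2, hall⟩))
  obtain ⟨y, hyO, hgy, hyx, hyhx⟩ : ∃ y ∈ O, g y = y ∧ y ≠ x ∧ y ≠ h x := by
    by_contra hno
    push Not at hno
    have h5 : (Finset.univ.filter fun y : ↥O => g y = y) ⊆ {⟨x, hx⟩, ⟨h x, hhxO⟩} := by
      intro y hy
      rw [Finset.mem_filter] at hy
      rw [Finset.mem_insert, Finset.mem_singleton]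
      by_cases hyx : (y : GolayPt) = x
      · exact Or.inl (Subtype.ext hyx)
      · exact Or.inr (Subtype.ext (hno y y.2 hy.2 hyx))
    have h6 := Finset.card_le_card h5
    have h7 := Finset.card_le_two (a := (⟨x, hx⟩ : ↥O)) (b := ⟨h x, hhxO⟩)
    omega
  have h5 : 2 * Nat.card (WG C.toFrame O ⊓ Subgroup.centralizer ({(n : G)} : Set G) ⊓
      Subgroup.centralizer ({(m : G)} : Set G) : Subgroup G) ≤
      Nat.card (WG C.toFrame O ⊓ Subgroup.centralizer ({(n : G)} : Set G) : Subgroup G) := by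
    apply two_mul_card_le inf_le_left (a := C.ε {x, y})
    · refine ⟨duad_mem_WG hx hyO (Ne.symm hyx), Subgroup.mem_centralizer_singleton_iff.2 ?_⟩
      have h6 := C.π_smul n {x, y} (even_pair' (Ne.symm hyx))
      have h7 : g • ({x, y} : Finset GolayPt) = {x, y} := by
        rw [Finset.smul_finset_insert, Finset.smul_finset_singleton]
        show ({g x, g y} : Finset GolayPt) = _
        rw [hnx, hgy]
      rw [← hg, h7] at h6
      exact (mul_inv_eq_iff_eq_mul.1 h6).symm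
    · rintro ⟨-, h6⟩
      rcases duad_comm (Ne.symm hyx) (Subgroup.mem_centralizer_singleton_iff.1 h6).symm with h7 | h7
      · exact hmx h7
      · exact hyhx h7.symm
  omega

/-- `|C_W(n, m)| ≤ 8` if `n, m, n m` are nontrivial on `O` -/
theorem card_cent_two_le [Finite G] (C : J4Type.Compl G) {O : Finset GolayPt} (hO : O ∈ octads)
    (n m : NE C.toFrame) (hn2 : (C.π n : Equiv.Perm GolayPt) * (C.π n : Equiv.Perm GolayPt) = 1)
    (hm2 : (C.π m : Equiv.Perm GolayPt) * (C.π m : Equiv.Perm GolayPt) = 1)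
    (hnO : (C.π n : Equiv.Perm GolayPt) • O = O) (hmO : (C.π m : Equiv.Perm GolayPt) • O = O)
    (hnf : (C.π n : Equiv.Perm GolayPt) ∉ fixOct O) (hmf : (C.π m : Equiv.Perm GolayPt) ∉ fixOct O)
    (hnmf : (C.π n : Equiv.Perm GolayPt) * (C.π m : Equiv.Perm GolayPt) ∉ fixOct O)
    (hnm : (C.π n : Equiv.Perm GolayPt) * (C.π m : Equiv.Perm GolayPt) =
      (C.π m : Equiv.Perm GolayPt) * (C.π n : Equiv.Perm GolayPt)) :
    Nat.card (WG C.toFrame O ⊓ Subgroup.centralizer ({(n : G)} : Set G) ⊓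
      Subgroup.centralizer ({(m : G)} : Set G) : Subgroup G) ≤ 8 := by
  by_cases h2 : ∃ x ∈ O, (C.π n : Equiv.Perm GolayPt) x = x ∧ (C.π m : Equiv.Perm GolayPt) x ≠ x
  · obtain ⟨x, hx, h3, h4⟩ := h2
    exact card_cent_two_le_aux C hO n m hn2 hnO hmO hnf hnm hx h3 h4
  by_cases h3 : ∃ x ∈ O, (C.π m : Equiv.Perm GolayPt) x = x ∧ (C.π n : Equiv.Perm GolayPt) x ≠ x
  · obtain ⟨x, hx, h3, h4⟩ := h3
    have h5 := card_cent_two_le_aux C hO m n hm2 hmO hnO hmf hnm.symm hx h3 h4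
    rwa [inf_assoc, inf_comm (Subgroup.centralizer ({(m : G)} : Set G)), ← inf_assoc] at h5
  by_cases h1 : ∃ x ∈ O, (C.π n : Equiv.Perm GolayPt) x ≠ x ∧ (C.π m : Equiv.Perm GolayPt) x ≠ x ∧
      (C.π m : Equiv.Perm GolayPt) x ≠ (C.π n : Equiv.Perm GolayPt) x
  · obtain ⟨x, hx, h4, h5, h6⟩ := h1
    have h7 := two_mul_card (F := C.toFrame) (O := O) (n := n) (m := m) hx
      ((FusionM22.mem_iff_of_smul_eq hnO x).2 hx) (Ne.symm h4) rfl
      (by rw [← Equiv.Perm.mul_apply, hn2]; rfl) h5 h6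
    have h8 := card_cent_le C hO n hn2 hnO hnf
    omega
  exfalso
  push Not at h1 h2 h3
  apply hnmf
  refine mem_fixOct.2 ⟨M24.mul_mem (C.π n).2 (C.π m).2, fun x hx => ?_⟩
  have h4 : (C.π m : Equiv.Perm GolayPt) x = (C.π n : Equiv.Perm GolayPt) x := by
    by_cases h5 : (C.π n : Equiv.Perm GolayPt) x = x
    · rw [h5, h2 x hx h5]
    by_cases h6 : (C.π m : Equiv.Perm GolayPt) x = x
    · rw [h6, h3 x hx h6]
    exact h1 x hx h5 h6
  rw [Equiv.Perm.mul_apply, h4, ← Equiv.Perm.mul_apply, hn2]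
  rfl

/-- (a) -/
theorem le_fixOct_of_fix [Finite G] (C : J4Type.Compl G) {E' : Subgroup G}
    (hE' : ∀ a ∈ E', a * a = 1) (h8 : 8 ≤ Nat.card (im C.toFrame E'))
    (hD : 32 ≤ Nat.card (E' ⊓ C.E hex0 : Subgroup G)) {u : Equiv.Perm GolayPt}
    (hu : u ∈ im C.toFrame E') (hu1 : u ≠ 1) {p : GolayPt} (hup : u p = p) :
    ∃ O ∈ octads, im C.toFrame E' ≤ fixOct O := by
  classical
  have hAM : im C.toFrame E' ≤ M24 := im_le C.toFrame E'
  have hAsq : ∀ b ∈ im C.toFrame E', b * b = 1 := im_sq C.toFrame hE'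
  have hcomm := comm_of_sq hE'
  have hAcomm := comm_of_sq hAsq
  have hO := fix_octad (hAM hu) (hAsq u hu) hu1 hup
  set O : Finset GolayPt := Finset.univ.filter fun p : GolayPt => u p = p with hOdef
  have hmemO : ∀ x, x ∈ O ↔ u x = x := by
    intro x
    rw [hOdef, Finset.mem_filter]
    simp
  have huO : u ∈ fixOct O := mem_fixOct.2 ⟨hAM hu, fun x hx => (hmemO x).1 hx⟩
  have hst : ∀ b ∈ im C.toFrame E', b • O = O := by
    intro b hb
    apply smul_eq_of_mapsTo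
    intro x hx
    rw [hmemO] at hx ⊢
    rw [← Equiv.Perm.mul_apply, hAcomm u hu b hb, Equiv.Perm.mul_apply, hx]
  refine ⟨O, hO, ?_⟩
  obtain ⟨nu, hnuV, hnu⟩ := (mem_im C.toFrame).1 hu
  have hnu1 : C.π nu ≠ 1 := fun h => hu1 (by rw [← hnu, h]; rfl)
  obtain ⟨q, hq⟩ := FusionComm.exists_out hO
  have hD1 : Nat.card (E' ⊓ C.E hex0 : Subgroup G) ≤
      2 * Nat.card (E' ⊓ C.E hex0 ⊓ WG C.toFrame O : Subgroup G) := by
    apply FusionOne.card_le_two_mul
    intro a ha b hb haW hbW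
    have h1 := (cases_of_comm hO (hnu ▸ huO) hnu1 hq ha.2 (hcomm _ hnuV a ha.1)).resolve_left haW
    have h2 := (cases_of_comm hO (hnu ▸ huO) hnu1 hq hb.2 (hcomm _ hnuV b hb.1)).resolve_left hbW
    have h3 := (WG C.toFrame O).mul_mem ((WG C.toFrame O).inv_mem h1) h2
    have hne : q ≠ (C.π nu : Equiv.Perm GolayPt) q := by
      intro h
      apply hnu1
      exact Subtype.ext (OctadFixTrans.eq_one_of_fix hO (hnu ▸ huO) hq h.symm)
    have hεE := C.ε_mem {q, (C.π nu : Equiv.Perm GolayPt) q} (even_pair' hne)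
    have h4 := (C.E_elem hex0 HexMax.hex0_isHex).2 _ ((C.E hex0).mul_mem ((C.E hex0).inv_mem ha.2) hb.2)
      _ hεE
    have e : (a * C.ε {q, (C.π nu : Equiv.Perm GolayPt) q})⁻¹ *
        (b * C.ε {q, (C.π nu : Equiv.Perm GolayPt) q}) = a⁻¹ * b := by
      rw [mul_inv_rev, mul_assoc, ← mul_assoc a⁻¹, h4, ← mul_assoc, inv_mul_cancel, one_mul]
    rwa [e] at h3
  by_cases h17 : 17 ≤ Nat.card (E' ⊓ C.E hex0 ⊓ WG C.toFrame O : Subgroup G)
  · -- everything fixes `O` pointwise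
    intro b hb
    obtain ⟨n, hn, rfl⟩ := (mem_im C.toFrame).1 hb
    exact fix_of_cent C hO inf_le_right h17 n (fun d hd => hcomm _ hn _ hd.1.1) (hst _ hb)
  · exfalso
    -- `|A ⊓ fixOct O| ≤ 2` is impossible, and `≥ 4` gives `D ≤ W`
    have hβ : Nat.card (im C.toFrame E' ⊓ fixOct O : Subgroup (Equiv.Perm GolayPt)) < 4 := by
      by_contra h4
      push Not at h4
      obtain ⟨a, ha, b, hb, ha1, hb1, hab⟩ := FusionFact.exists_two_of_card h4
      obtain ⟨na, hna, hna'⟩ := (mem_im C.toFrame).1 ha.1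
      obtain ⟨nb, hnb, hnb'⟩ := (mem_im C.toFrame).1 hb.1
      have h5 : E' ⊓ C.E hex0 ≤ E' ⊓ C.E hex0 ⊓ WG C.toFrame O := by
        intro d hd
        refine ⟨hd, ?_⟩
        exact mem_WG_of_comm hO (n := na) (m := nb) (hna' ▸ ha.2)
          (fun h => ha1 (by rw [← hna', h]; rfl)) (hnb' ▸ hb.2)
          (fun h => hb1 (by rw [← hnb', h]; rfl))
          (fun h => hab (by rw [← hna', ← hnb', h])) hd.2 (hcomm _ hna d hd.1) (hcomm _ hnb d hd.1)
      have := Subgroup.card_le_of_le h5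
      omega
    -- two elements
    obtain ⟨g, hg, hgO⟩ : ∃ g ∈ im C.toFrame E', g ∉ fixOct O := by
      by_contra hno
      push Not at hno
      have h5 : im C.toFrame E' ≤ im C.toFrame E' ⊓ fixOct O := fun x hx => ⟨hx, hno x hx⟩
      have := Subgroup.card_le_of_le h5
      omega
    obtain ⟨h, hh, hhO, hghO⟩ : ∃ h ∈ im C.toFrame E', h ∉ fixOct O ∧ g * h ∉ fixOct O := by
      by_contra hno
      push Not at hno
      have h5 := FusionOne.card_le_two_mul (im C.toFrame E')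
        (fixOct O) (fun a ha b hb haO hbO => by
          have h6 := hno a ha haO
          have h7 := hno b hb hbO
          have h8 := (fixOct O).mul_mem ((fixOct O).inv_mem h6) h7
          rwa [mul_inv_rev, mul_assoc, inv_mul_cancel_left] at h8)
      omega
    obtain ⟨n, hn, hn'⟩ := (mem_im C.toFrame).1 hg
    obtain ⟨m, hm, hm'⟩ := (mem_im C.toFrame).1 hh
    subst hn' hm'
    have h5 := card_cent_two_le C hO n m (hAsq _ hg) (hAsq _ hh) (hst _ hg) (hst _ hh) hgO hhO hghO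
      (hAcomm _ hg _ hh)
    have h6 : E' ⊓ C.E hex0 ⊓ WG C.toFrame O ≤ WG C.toFrame O ⊓
        Subgroup.centralizer ({(n : G)} : Set G) ⊓ Subgroup.centralizer ({(m : G)} : Set G) := by
      intro d hd
      exact ⟨⟨hd.2, Subgroup.mem_centralizer_singleton_iff.2 (hcomm _ hn d hd.1.1).symm⟩,
        Subgroup.mem_centralizer_singleton_iff.2 (hcomm _ hm d hd.1.1).symm⟩
    have h7 := Subgroup.card_le_of_le h6
    omega

end Cfsg.Agent.H796.JM
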