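import Cfsg.Agent.H796.JM.FFourteen

/-!
# Part (c) of `F16` : the centralizer of an elementary abelian group over a subgroup of `fixOct O` (helper796)
-/

set_option autoImplicit false

open scoped Pointwise

namespace Cfsg.Agent.H796.JM

open Cfsg Cfsg.Agent.SporadicA.GolayBase Cfsg.Agent.SporadicA.OctadFix
open Cfsg.Agent.J4Type Cfsg.Agent.J4Type.CocodeMask Cfsg.Agent.J4Type.TauM24
open Cfsg.Agent.J4Type.TauMask Cfsg.Agent.J4Type.FrameDefs
open Cfsg.Agent.H857.Card Cfsg.Agent.H857.Classify Cfsg.Agent.H857.WGrp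
open Cfsg.Agent.H857.Orbits Cfsg.Agent.H857.Normal Cfsg.Agent.H857.T10Norm

variable {G : Type*} [Group G]

/-- an involution commuting with an element of `X` outside `E`, over a different element of `fixOct O` -/
theorem mem_X_of_comm [Finite G] (C : J4Type.Compl G) {X : Subgroup G} (hX : IsX X)
    (hN : X ≤ Subgroup.normalizer (C.E hex0 : Set G)) {O : Finset GolayPt} (hO : O ∈ octads)
    (him : im C.toFrame X = fixOct O) (hW : X ⊓ C.E hex0 = WG C.toFrame O) {w : G} (hw : w ∈ X)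
    (hwE : w ∉ C.E hex0) {x' : G} (hx' : x' ∈ Subgroup.normalizer (C.E hex0 : Set G))
    (hx'x' : x' * x' = 1) (hwx' : w * x' = x' * w)
    (hτ : (C.π ⟨x', hx'⟩ : Equiv.Perm GolayPt) ∈ fixOct O) (h1 : C.π ⟨x', hx'⟩ ≠ 1)
    (hσ' : C.π ⟨x', hx'⟩ ≠ C.π ⟨w, hN hw⟩) : x' ∈ X := by
  set σ := C.π ⟨w, hN hw⟩ with hσ
  have hσ1 : σ ≠ 1 := fun h => hwE ((C.π_ker ⟨w, hN hw⟩).1 h)
  have hσO : (σ : Equiv.Perm GolayPt) ∈ fixOct O := by
    rw [← him]
    exact (mem_im C.toFrame).2 ⟨⟨w, hN hw⟩, hw, rfl⟩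
  obtain ⟨p, hp⟩ := FusionComm.exists_out hO
  have hpσ : p ≠ (σ : Equiv.Perm GolayPt) p := by
    intro h
    exact hσ1 (Subtype.ext (OctadFixTrans.eq_one_of_fix hO hσO hp h.symm))
  have hWX : WG C.toFrame O ≤ X := by rw [← hW]; exact inf_le_left
  rw [← him] at hτ
  obtain ⟨x, hxX, hx⟩ := (mem_im C.toFrame).1 hτ
  rw [him] at hτ
  have hx2 : C.π x = C.π ⟨x', hx'⟩ := Subtype.ext hx
  set d := (x : G)⁻¹ * x' with hd
  have hdE : d ∈ C.E hex0 := by
    have h2 : C.π (x⁻¹ * ⟨x', hx'⟩) = 1 := by rw [map_mul, map_inv, hx2, inv_mul_cancel]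
    exact (C.π_ker _).1 h2
  have hxx : (x : G) * x = 1 := hX.el.1 _ hxX
  have hdd : d * d = 1 := E_sq hdE
  have hx'd : x' = x * d := by rw [hd]; group
  have hxinv : (x : G)⁻¹ = x := inv_eq_of_mul_eq_one_left hxx
  have hxd : (x : G) * d = d * x := by
    have h2 : (x : G) * d * (x * d) = 1 := by rw [← hx'd]; exact hx'x'
    calc (x : G) * d = (x * d) * ((x * d) * (x * d)) := by rw [h2, mul_one]
      _ = (x * d * (x * d)) * (x * d) := by group
      _ = x * d := by rw [h2, one_mul]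
      _ = (x * d)⁻¹ := (inv_eq_of_mul_eq_one_left h2).symm
      _ = d⁻¹ * (x : G)⁻¹ := by group
      _ = d * x := by rw [inv_eq_of_mul_eq_one_left hdd, hxinv]
  have hwd : w * d = d * w := by
    have h2 := hX.el.2 w hw x hxX
    calc w * d = w * x * x' := by rw [hd, hxinv]; group
      _ = x * (w * x') := by rw [h2]; group
      _ = x * (x' * w) := by rw [hwx']
      _ = d * w := by rw [hd, hxinv]; group
  have hc := cases_of_comm (F := C.toFrame) hO (n := ⟨w, hN hw⟩) hσO hσ1 hp hdE hwd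
  rcases hc with hc | hc
  · rw [hx'd]
    exact X.mul_mem hxX (hWX hc)
  · exfalso
    have hε : (x : G) * C.ε {p, (σ : Equiv.Perm GolayPt) p} =
        C.ε {p, (σ : Equiv.Perm GolayPt) p} * x := by
      have h2 := hX.el.2 _ hxX _ (hWX hc)
      have h3 : C.ε {p, (σ : Equiv.Perm GolayPt) p} =
          d * (d * C.ε {p, (σ : Equiv.Perm GolayPt) p}) := by
        rw [← mul_assoc, hdd, one_mul]
      calc (x : G) * C.ε {p, (σ : Equiv.Perm GolayPt) p}
          = x * (d * (d * C.ε {p, (σ : Equiv.Perm GolayPt) p})) := by rw [← h3]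
        _ = x * d * (d * C.ε {p, (σ : Equiv.Perm GolayPt) p}) := by group
        _ = d * (x * (d * C.ε {p, (σ : Equiv.Perm GolayPt) p})) := by rw [hxd]; group
        _ = d * (d * C.ε {p, (σ : Equiv.Perm GolayPt) p} * x) := by rw [h2]
        _ = d * (d * C.ε {p, (σ : Equiv.Perm GolayPt) p}) * x := by group
        _ = _ := by rw [← h3]
    rw [← hx2] at h1 hσ' hτ
    rcases duad_comm hpσ hε with h | h
    · exact h1 (Subtype.ext (OctadFixTrans.eq_one_of_fix hO hτ hp h))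
    · apply hσ'
      apply Subtype.ext
      have h2 : (σ : Equiv.Perm GolayPt)⁻¹ * (C.π x : Equiv.Perm GolayPt) = 1 :=
        OctadFixTrans.eq_one_of_fix hO ((fixOct O).mul_mem ((fixOct O).inv_mem hσO) hτ) hp (by
          rw [Equiv.Perm.mul_apply, h]
          exact (σ : Equiv.Perm GolayPt).symm_apply_apply p)
      exact (inv_mul_eq_one.1 h2).symm

/-- an element of `M24` stabilising an octad `O` and fixing six points of `O` fixes `O` pointwise -/
theorem fix_of_six {O : Finset GolayPt} (hO : O ∈ octads) {g : Equiv.Perm GolayPt} (hM : g ∈ M24)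
    (hgO : g • O = O) {a b : GolayPt} (ha : a ∈ O) (hb : b ∈ O) (hab : a ≠ b)
    (hfix : ∀ x ∈ O, x ≠ a → x ≠ b → g x = x) : g a = a := by
  classical
  by_contra hga
  have hst := FusionM22.mem_iff_of_smul_eq hgO
  have hO8 : O.card = 8 := octad_card hO
  have hgab : g a = b := by
    by_contra h
    have h1 := hfix (g a) ((hst a).2 ha) hga h
    exact hga (g.injective h1)
  have hgba : g b = a := by
    by_contra h
    by_cases h2 : g b = b
    · exact hab (g.injective (hgab.trans h2.symm))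
    · have h1 := hfix (g b) ((hst b).2 hb) h h2
      exact h2 (g.injective h1)
  have hgg : ∀ x ∈ O, g (g x) = x := by
    intro x hx
    by_cases h1 : x = a
    · rw [h1, hgab, hgba]
    by_cases h2 : x = b
    · rw [h2, hgba, hgab]
    rw [hfix x hx h1 h2, hfix x hx h1 h2]
  have h1 : b ∈ O.erase a := Finset.mem_erase.2 ⟨hab.symm, hb⟩
  have hO6 : ((O.erase a).erase b).card = 6 := by
    rw [Finset.card_erase_of_mem h1, Finset.card_erase_of_mem ha, hO8]
  have hall : ∀ y ∈ (O.erase a).erase b, g y = y := by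
    intro y hy
    rw [Finset.mem_erase, Finset.mem_erase] at hy
    exact hfix y hy.2.2 hy.2.1 hy.1
  obtain ⟨p, hp, q, hq, hpq⟩ := Finset.one_lt_card.1 (show 1 < ((O.erase a).erase b).card by omega)
  have hpO := Finset.mem_of_mem_erase (Finset.mem_of_mem_erase hp)
  have hqO := Finset.mem_of_mem_erase (Finset.mem_of_mem_erase hq)
  have h2 := FusionM22.card_fix_octad hO hM hgg hgO hpO hqO hpq (hall p hp) (hall q hq)
    (fun h => hga (h a ha))
  have h3 : ((O.erase a).erase b).card ≤ (Finset.univ.filter fun y : ↥O => g y = y).card := by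
    apply Finset.card_le_card_of_injOn
      (fun y => if hy : y ∈ O then (⟨y, hy⟩ : ↥O) else ⟨a, ha⟩)
    · intro y hy
      rw [Finset.mem_coe] at hy
      have hyO := Finset.mem_of_mem_erase (Finset.mem_of_mem_erase hy)
      simp only [Finset.coe_filter, Finset.mem_univ, true_and, Set.mem_ofPred_eq, dif_pos hyO]
      exact hall y hy
    · intro y hy y' hy' h
      rw [Finset.mem_coe] at hy hy'
      have hyO := Finset.mem_of_mem_erase (Finset.mem_of_mem_erase hy)
      have hyO' := Finset.mem_of_mem_erase (Finset.mem_of_mem_erase hy')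
      simp only [dif_pos hyO, dif_pos hyO'] at h
      exact congrArg Subtype.val h
  omega

/-- a subgroup of order at least 32 of `W(O)` contains one of three duads -/
theorem duad_mem_of_three [Finite G] (C : J4Type.Compl G) {O : Finset GolayPt} (hO : O ∈ octads)
    {K : Subgroup G} (hK : K ≤ WG C.toFrame O) (h17 : 17 ≤ Nat.card K) {x y z : GolayPt}
    (hx : x ∈ O) (hy : y ∈ O) (hz : z ∈ O) (hxy : x ≠ y) (hxz : x ≠ z) (hyz : y ≠ z) :
    C.ε {x, y} ∈ K ∨ C.ε {x, z} ∈ K ∨ C.ε {y, z} ∈ K := by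
  by_contra hno
  push Not at hno
  obtain ⟨h1, h2, h3⟩ := hno
  have h4 := four_mul_card_le hK (fun w hw => E_sq (WG_le O hw))
    (duad_mem_WG (F := C.toFrame) hx hy hxy) (duad_mem_WG (F := C.toFrame) hx hz hxz) h1 h2
    (by rw [ε_pair_mul hxy hxz hyz]; exact h3)
  have h5 := card_WG_le (F := C.toFrame) hO
  omega

/-- an element centralising a large subgroup of `W(O)` and commuting with a nontrivial element of `fixOct O`
fixes `O` pointwise -/
theorem fix_of_cent [Finite G] (C : J4Type.Compl G) {O : Finset GolayPt} (hO : O ∈ octads)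
    {K : Subgroup G} (hK : K ≤ WG C.toFrame O) (h17 : 17 ≤ Nat.card K) (n : NE C.toFrame)
    (hn : ∀ d ∈ K, (n : G) * d = d * n) (hnO : (C.π n : Equiv.Perm GolayPt) • O = O) :
    (C.π n : Equiv.Perm GolayPt) ∈ fixOct O := by
  refine mem_fixOct.2 ⟨(C.π n).2, fun a ha => ?_⟩
  by_contra hga
  have hst := FusionM22.mem_iff_of_smul_eq hnO
  have hO8 : O.card = 8 := octad_card hO
  set g := (C.π n : Equiv.Perm GolayPt) with hg
  have hbO : g a ∈ O := (hst a).2 ha
  have hcomm : ∀ x y : GolayPt, x ≠ y → C.ε {x, y} ∈ K → g x = x ∨ g x = y := by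
    intro x y hxy h
    exact duad_comm hxy (hn _ h)
  have h1 : ∀ x ∈ O, x ≠ a → x ≠ g a → C.ε {a, x} ∉ K := by
    intro x _ hxa hxb h
    rcases hcomm a x (Ne.symm hxa) h with h2 | h2
    · exact hga h2
    · exact hxb h2.symm
  have h2 : ∀ x ∈ O, x ≠ a → x ≠ g a → ∀ y ∈ O, y ≠ a → y ≠ g a → x ≠ y → C.ε {x, y} ∈ K := by
    intro x hx hxa hxb y hy hya hyb hxy
    rcases duad_mem_of_three C hO hK h17 ha hx hy (Ne.symm hxa) (Ne.symm hya) hxy with h | h | h
    · exact absurd h (h1 x hx hxa hxb)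
    · exact absurd h (h1 y hy hya hyb)
    · exact h
  apply hga
  apply fix_of_six hO (C.π n).2 hnO ha hbO (Ne.symm hga)
  intro x hx hxa hxb
  by_contra hgx
  -- two further points
  have h3 : ∃ y ∈ O, y ∉ ({a, g a, x, g x} : Finset GolayPt) := by
    by_contra hno
    push Not at hno
    have h4 := Finset.card_le_card (fun z hz => hno z hz : O ⊆ {a, g a, x, g x})
    have h5 := Finset.card_le_four (a := a) (b := g a) (c := x) (d := g x)
    omega
  obtain ⟨y, hy, hyn⟩ := h3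
  simp only [Finset.mem_insert, Finset.mem_singleton, not_or] at hyn
  rcases hcomm x y (Ne.symm hyn.2.2.1) (h2 x hx hxa hxb y hy hyn.1 hyn.2.1 (Ne.symm hyn.2.2.1)) with h | h
  · exact hgx h
  · exact hyn.2.2.2 h.symm

/-- (c) -/
theorem cent_le_X [Finite G] [IsSimpleGroup G] (C : J4Type.Compl G) {E' : Subgroup G}
    (hE' : ∀ a ∈ E', a * a = 1) (hN' : E' ≤ Subgroup.normalizer (C.E hex0 : Set G))
    {O : Finset GolayPt} (hO : O ∈ octads) (hA : im C.toFrame E' ≤ fixOct O)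
    (h4 : 4 ≤ Nat.card (im C.toFrame E')) (hD : 17 ≤ Nat.card (E' ⊓ C.E hex0 : Subgroup G)) :
    ∃ X : Subgroup G, IsX X ∧ E' ≤ X ∧ Subgroup.centralizer (E' : Set G) ≤ X := by
  have hcomm := comm_of_sq hE'
  obtain ⟨a, ha, b, hb, ha1, hb1, hab⟩ := FusionFact.exists_two_of_card h4
  obtain ⟨n, hn, rfl⟩ := (mem_im C.toFrame).1 ha
  obtain ⟨m, hm, rfl⟩ := (mem_im C.toFrame).1 hb
  have hn1 : C.π n ≠ 1 := fun h => ha1 (by rw [h]; rfl)
  have hm1 : C.π m ≠ 1 := fun h => hb1 (by rw [h]; rfl)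
  have hnm : C.π n ≠ C.π m := fun h => hab (by rw [h])
  have hDW : E' ⊓ C.E hex0 ≤ WG C.toFrame O := by
    intro d hd
    exact mem_WG_of_comm hO (F := C.toFrame) (n := n) (m := m) (hA ha) hn1 (hA hb) hm1 hnm hd.2
      (hcomm _ hn _ hd.1) (hcomm _ hm _ hd.1)
  obtain ⟨X, hX, hnX, hN, him, hW⟩ := exists_X C hO n.2 (hE' _ hn) (hA ha) hn1
  have hnE : (n : G) ∉ C.E hex0 := fun h => hn1 ((C.π_ker n).2 h)
  have hmX : (m : G) ∈ X := mem_X_of_comm C hX hN hO him hW hnX hnE m.2 (hE' _ hm)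
    (hcomm _ hn _ hm) (hA hb) hm1 (Ne.symm hnm)
  have hmE : (m : G) ∉ C.E hex0 := fun h => hm1 ((C.π_ker m).2 h)
  have hWX : WG C.toFrame O ≤ X := by rw [← hW]; exact inf_le_left
  have hE'X : E' ≤ X := by
    intro x hx
    have hxN := hN' hx
    have hxO : (C.π ⟨x, hxN⟩ : Equiv.Perm GolayPt) ∈ fixOct O :=
      hA ((mem_im C.toFrame).2 ⟨⟨x, hxN⟩, hx, rfl⟩)
    by_cases h1 : C.π ⟨x, hxN⟩ = 1
    · exact hWX (hDW ⟨hx, (C.π_ker ⟨x, hxN⟩).1 h1⟩)
    by_cases h2 : C.π ⟨x, hxN⟩ = C.π n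
    · refine mem_X_of_comm C hX hN hO him hW hmX hmE hxN (hE' _ hx) (hcomm _ hm _ hx) hxO h1 ?_
      intro h3
      exact hnm (h2.symm.trans h3)
    · exact mem_X_of_comm C hX hN hO him hW hnX hnE hxN (hE' _ hx) (hcomm _ hn _ hx) hxO h1 h2
  refine ⟨X, hX, hE'X, ?_⟩
  intro c hc
  rw [Subgroup.mem_centralizer_iff] at hc
  have hcE : ∀ x ∈ E', c * x = x * c := fun x hx => (hc x hx).symm
  have hO8 : O.card = 8 := octad_card hO
  obtain ⟨x, hx, y, hy, z, hz, hxy, hxz, hyz⟩ := Finset.two_lt_card.1 (show 2 < O.card by omega)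
  have hcN : c ∈ Subgroup.normalizer (C.E hex0 : Set G) := by
    rcases duad_mem_of_three C hO hDW hD hx hy hz hxy hxz hyz with h | h | h
    · exact DuadCent.duad_cent C.toFrame hxy (hcE _ h.1)
    · exact DuadCent.duad_cent C.toFrame hxz (hcE _ h.1)
    · exact DuadCent.duad_cent C.toFrame hyz (hcE _ h.1)
  have hπ : C.π n * C.π ⟨c, hcN⟩ = C.π ⟨c, hcN⟩ * C.π n := by
    rw [← map_mul, ← map_mul]
    exact congrArg C.π (Subtype.ext (hcE _ hn).symm)
  have hcO : (C.π ⟨c, hcN⟩ : Equiv.Perm GolayPt) • O = O := by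
    apply smul_eq_of_mapsTo
    intro p hp
    by_contra hout
    apply hn1
    apply Subtype.ext
    apply OctadFixTrans.eq_one_of_fix hO (hA ha) hout
    have h1 := congrArg (fun u : M24 => (u : Equiv.Perm GolayPt) p) hπ
    have h2 : (C.π n : Equiv.Perm GolayPt) p = p := (mem_fixOct.1 (hA ha)).2 p hp
    have h3 : (C.π n : Equiv.Perm GolayPt) ((C.π ⟨c, hcN⟩ : Equiv.Perm GolayPt) p) =
        (C.π ⟨c, hcN⟩ : Equiv.Perm GolayPt) ((C.π n : Equiv.Perm GolayPt) p) := h1
    rw [h3, h2]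
  have hcfix := fix_of_cent C hO hDW hD ⟨c, hcN⟩ (fun d hd => hcE d hd.1) hcO
  rw [← him] at hcfix
  obtain ⟨v, hvX, hv⟩ := (mem_im C.toFrame).1 hcfix
  have hv2 : C.π v = C.π ⟨c, hcN⟩ := Subtype.ext hv
  have hdE : (v : G)⁻¹ * c ∈ C.E hex0 := by
    have h2 : C.π (v⁻¹ * ⟨c, hcN⟩) = 1 := by rw [map_mul, map_inv, hv2, inv_mul_cancel]
    exact (C.π_ker _).1 h2
  have hcd : ∀ k ∈ E', k * ((v : G)⁻¹ * c) = (v : G)⁻¹ * c * k := by
    intro k hk
    have h1 : k * (v : G) = v * k := hX.el.2 k (hE'X hk) v hvX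
    have h2 : k * (v : G)⁻¹ = (v : G)⁻¹ * k := by
      rw [mul_inv_eq_iff_eq_mul, mul_assoc, h1, inv_mul_cancel_left]
    rw [← mul_assoc, h2, mul_assoc, ← hcE k hk, mul_assoc]
  have hdW := mem_WG_of_comm hO (F := C.toFrame) (n := n) (m := m) (hA ha) hn1 (hA hb) hm1 hnm hdE
    (hcd _ hn) (hcd _ hm)
  have h5 := X.mul_mem hvX (hWX hdW)
  rwa [mul_inv_cancel_left] at h5

end Cfsg.Agent.H796.JM
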